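import Cfsg.Agent.H865.L5.Base

/-!
# S5924, T3 (helper241): `f VL` is conjugate in `GT k` to a regular subset of `T5 k`

* `exists_rp_conj` : families of the torus conjugate in `Y` are conjugate under `N(T)`;
* `reg_VL` : regularity of `g f(VL) g⁻¹ ⊆ T` by counting the pairs (element, killed root);
* `five_of_tor` : the pointwise stabiliser of a regular family of elements of order 5 is a 5-group;
* `lang_sg` : Lang's theorem in the torus for `sg`;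
* `tor_aux`.
-/

set_option autoImplicit false
set_option linter.unusedSectionVars false

namespace Cfsg.Agent.H241.L5

open CoxeterSystem Subgroup Cfsg Cfsg.Lie Cfsg.Lie.ChevalleyDatum
open Cfsg.Agent.ChevalleyStructure Cfsg.Agent.ChevalleyStructure.Elts Cfsg.Agent.ChevalleyStructure.CoxeterGeom
  Cfsg.Agent.ChevalleyStructure.CoxeterGeomTypes Cfsg.Agent.ChevalleyStructure.NPerm
open Cfsg.Agent.Tits.Roots Cfsg.Agent.Tits.Core Cfsg.Agent.Nodes Cfsg.Agent.Nodes.SubComb Cfsg.Agent.Nodes.Reps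
  Cfsg.Agent.Nodes.BNOf Cfsg.Agent.Nodes.RGDChev Cfsg.Agent.Nodes.Bruhat Cfsg.Agent.Nodes.Coroot
open Cfsg.Agent.KFacts.RgdField Cfsg.Agent.KFacts.RgdChevCoord Cfsg.Agent.BpExc.TorCent Cfsg.Agent.BpExc.TorChev
open Cfsg.Agent.GpExc.Field Cfsg.Agent.BpExc.Tow Cfsg.Agent.BpExc.TowChev Cfsg.Agent.BpExc.Fr
  Cfsg.Agent.BpExc.LangFr Cfsg.Agent.BpExc.FamField Cfsg.Agent.BpExc.FamInst Cfsg.Agent.H129.TorusChar
  Cfsg.Agent.H795.LangT Cfsg.Agent.BpExc.FamExt Cfsg.Agent.BpExc.FamUntw Cfsg.Agent.H378.TorDual Cfsg.Agent.H378.TorChar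
  Cfsg.Agent.H378.TorFin Cfsg.Agent.H378.RankOne Cfsg.Agent.H378.RootTor Cfsg.Agent.H865.EE Cfsg.Agent.H865.L5
  Cfsg.Agent.H123.ExcZ

attribute [local irreducible] w8

/-! ### Families of the torus -/

theorem rp_cast {Y : Type*} [Group Y] {I : Type*} {M : CoxeterMatrix I} {W : Type*} [Group W]
    {cs : CoxeterSystem M W} {T T' : Subgroup Y} {n : I → Y} (e : T = T') (hN : NSys M T n) (hN' : NSys M T' n)
    {w : W} {c : Y} (h : Rp cs hN w c) : Rp cs hN' w c := by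
  subst e
  exact h

section Tor

variable {k : Type} [Field k] [CharP k 3] (hk : LocFin k)

include hk in
/-- families of the torus conjugate in the group are conjugate in the normalizer of the torus -/
theorem exists_rp_conj {ι : Type*} [Finite ι] {s t : ι → ↥(chevE8.group k)} (hs : ∀ i, s i ∈ TT chevE8 k)
    (ht : ∀ i, t i ∈ TT chevE8 k) {c : ↥(chevE8.group k)} (hc : ∀ i, c * s i = t i * c) :
    ∃ w n, Rp cs8 (nsysL tp8 cs8 hk 3) w n ∧ (∀ i, n * s i = t i * n) ∧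
      ((∀ a, Rt a → ∃ i, cX tp8 (t i) a ≠ 1) → n = c) := by
  have hWf := finite_W tp8 cs8
  have H := tow tp8 cs8 hk 3
  have C : Coords cs8 tp8.isCartan (TL (Tj tp8 (k := k))) (nc tp8 k) (XL (Xj tp8)) (xc tp8) (ch tp8) := by
    rw [TL_eq tp8 hk, XL_eq tp8 hk]
    exact coordsL tp8 cs8 hk 3
  have hGt := GG_eq_top tp8 cs8 hk
  have hTL := TL_eq (k := k) tp8 hk
  obtain ⟨m, hm, w, n, hn, hns, e⟩ := exists_form' H C (ι := ι) (s := s) (t := t)
    (fun a => by rw [hTL]; exact hs a) (fun a => by rw [hTL]; exact ht a) (c := c)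
    (by rw [hGt]; exact Subgroup.mem_top _) hc
  refine ⟨w, n, rp_cast hTL H.nsys _ hn, hns, fun hreg => ?_⟩
  have hSZ : SZ cs8 tp8.isCartan (ch tp8) t = ∅ := by
    rw [Set.eq_empty_iff_forall_notMem]
    intro a ha
    obtain ⟨i, hi⟩ := hreg a ha.1
    rw [cX_root tp8 cs8 (ht i) ha.1] at hi
    exact hi (ha.2 i)
  have hm1 : m = 1 := by
    have h1 : m ∈ (⊥ : Subgroup ↥(chevE8.group k)) := by
      have h2 : MZ cs8 tp8.isCartan (XL (Xj tp8 (k := k))) (ch tp8) t ≤ ⊥ := by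
        refine RGD.Sup_le fun a ha => ?_
        rw [hSZ] at ha
        exact absurd ha (Set.notMem_empty a)
      exact h2 hm
    exact (Subgroup.mem_bot).1 h1
  rw [e, hm1, one_mul]

theorem rp_conj_TT {w : W8} {c : ↥(chevE8.group k)} (hc : Rp cs8 (nsysL tp8 cs8 hk 3) w c) {t : ↥(chevE8.group k)}
    (ht : t ∈ TT chevE8 k) : c * t * c⁻¹ ∈ TT chevE8 k :=
  (Subgroup.mem_normalizer_iff.1 hc.mem_normalizer t).1 ht

theorem cX_rp3 {w : W8} {c : ↥(chevE8.group k)} (hc : Rp cs8 (nsysL tp8 cs8 hk 3) w c) {t : ↥(chevE8.group k)}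
    (ht : t ∈ TT chevE8 k) (x : Fin 8 → ℤ) : cX tp8 (c * t * c⁻¹) (act w x) = cX tp8 t x :=
  cX_rp tp8 cs8 hk 3 hc ht x

theorem act_inv_act (w : W8) (x : Fin 8 → ℤ) : act w⁻¹ (act w x) = x := by
  rw [← act_mul, inv_mul_cancel, act_one]

theorem act_act_inv (w : W8) (x : Fin 8 → ℤ) : act w (act w⁻¹ x) = x := by
  rw [← act_mul, mul_inv_cancel, act_one]

/-! ### The number of roots killed -/

/-- the number of roots killed by `s` -/
noncomputable def KS (s : ↥(chevE8.group k)) : ℕ := Nat.card {a : Fin 8 → ℤ // Rt a ∧ cX tp8 s a = 1}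

include hk in
theorem KS_conj {s t c : ↥(chevE8.group k)} (hs : s ∈ TT chevE8 k) (ht : t ∈ TT chevE8 k) (hc : c * s = t * c) :
    KS s = KS t := by
  obtain ⟨w, n, hn, hns, -⟩ := exists_rp_conj hk (ι := Unit) (s := fun _ => s) (t := fun _ => t) (fun _ => hs)
    (fun _ => ht) (c := c) (fun _ => hc)
  have e : n * s * n⁻¹ = t := by rw [hns ()]; group
  have key : ∀ x, cX tp8 t (act w x) = cX tp8 s x := fun x => by
    rw [← e]; exact cX_rp3 hk hn hs x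
  refine Nat.card_congr
    { toFun := fun a => ⟨act w a.1, rt_act a.2.1 w, by rw [key]; exact a.2.2⟩
      invFun := fun a => ⟨act w⁻¹ a.1, rt_act a.2.1 w⁻¹, by rw [← key, act_act_inv]; exact a.2.2⟩
      left_inv := fun a => Subtype.ext (act_inv_act w a.1)
      right_inv := fun a => Subtype.ext (act_act_inv w a.1) }

/-- the roots -/
abbrev Ph8 := {a : Fin 8 → ℤ // Rt a}

instance finite_Ph8 : Finite Ph8 := RGD.finite_roots (cs := cs8) (h := tp8.isCartan)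

noncomputable instance : Fintype Ph8 := Fintype.ofFinite _

open Classical in
theorem KS_eq (s : ↥(chevE8.group k)) : KS s = ∑ a : Ph8, if cX tp8 s a.1 = 1 then 1 else 0 := by
  rw [Finset.sum_boole, Nat.cast_id, KS, ← Fintype.card_subtype, ← Nat.card_eq_fintype_card]
  refine Nat.card_congr
    { toFun := fun a => ⟨⟨a.1, a.2.1⟩, a.2.2⟩
      invFun := fun a => ⟨a.1.1, a.1.2, a.2⟩
      left_inv := fun a => rfl
      right_inv := fun a => rfl }

/-- additive families of 25 elements of order 5 -/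
abbrev A5 := ZMod 5 × ZMod 5

section Count

variable {s : A5 → ↥(chevE8.group k)} (hs : ∀ p, s p ∈ TT chevE8 k) (hm : ∀ p q, s (p + q) = s p * s q)

/-- the character of the root `a` on the family -/
noncomputable def chr (a : Fin 8 → ℤ) : Multiplicative A5 →* kˣ where
  toFun p := Units.mk0 (cX tp8 (s p.toAdd) a) ((isMC_cX tp8 (hs _)).ne_zero a)
  map_one' := by
    apply Units.ext
    have h1 : s 0 = 1 := by
      have := hm 0 0
      rw [add_zero] at this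
      exact left_eq_mul.1 this
    show cX tp8 (s 0) a = 1
    rw [h1, cX_one]
  map_mul' p q := by
    apply Units.ext
    show cX tp8 (s (p.toAdd + q.toAdd)) a = cX tp8 (s p.toAdd) a * cX tp8 (s q.toAdd) a
    rw [hm, cX_mul tp8 (hs _) (hs _)]

include hm in
theorem fam_zero : s 0 = 1 := by
  have := hm 0 0
  rw [add_zero] at this
  exact left_eq_mul.1 this

theorem card_A5 : Nat.card (Multiplicative A5) = 25 := by
  rw [Nat.card_congr Multiplicative.toAdd, Nat.card_eq_fintype_card, Fintype.card_prod, ZMod.card]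

open Classical in
theorem card_ker (a : Fin 8 → ℤ) : Nat.card ↥(chr hs hm a).ker = ∑ p : A5, if cX tp8 (s p) a = 1 then 1 else 0 := by
  rw [Finset.sum_boole, Nat.cast_id, ← Fintype.card_subtype, ← Nat.card_eq_fintype_card]
  refine Nat.card_congr
    { toFun := fun p => ⟨p.1.toAdd, congrArg Units.val ((MonoidHom.mem_ker).1 p.2)⟩
      invFun := fun p => ⟨Multiplicative.ofAdd p.1, MonoidHom.mem_ker.2 (Units.ext p.2)⟩
      left_inv := fun p => rfl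
      right_inv := fun p => rfl }

theorem card_ker_mul (a : Fin 8 → ℤ) : Nat.card ↥(chr hs hm a).ker * Nat.card ↥(chr hs hm a).range = 25 := by
  rw [← Subgroup.index_ker, Subgroup.card_mul_index, card_A5]

theorem card_range_le (a : Fin 8 → ℤ) : Nat.card ↥(chr hs hm a).range ≤ 5 := by
  have h1 : (chr hs hm a).range ≤ rootsOfUnity 5 k := by
    rintro _ ⟨p, rfl⟩
    rw [mem_rootsOfUnity, ← map_pow]
    have h2 : p ^ 5 = 1 := by
      apply Multiplicative.toAdd.injective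
      show (5 : ℕ) • p.toAdd = 0
      generalize p.toAdd = q
      revert q
      decide
    rw [h2, map_one]
  have h3 : Nat.card ↥(rootsOfUnity 5 k) ≤ 5 := card_rootsOfUnity k 5
  exact (Nat.card_le_card_of_injective _ (Subgroup.inclusion_injective h1)).trans h3

include hs hm in
open Classical in
theorem five_le_ker (a : Fin 8 → ℤ) : 5 ≤ ∑ p : A5, if cX tp8 (s p) a = 1 then 1 else 0 := by
  rw [← card_ker hs hm]
  have h1 := card_ker_mul hs hm a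
  have h2 := card_range_le hs hm a
  by_contra h
  have h3 : Nat.card ↥(chr hs hm a).ker ≤ 4 := by omega
  have h4 := Nat.mul_le_mul h3 h2
  omega

include hs hm in
open Classical in
theorem ker_le_five {a : Fin 8 → ℤ} (h : ∃ p, cX tp8 (s p) a ≠ 1) :
    ∑ p : A5, (if cX tp8 (s p) a = 1 then 1 else 0) ≤ 5 := by
  rw [← card_ker hs hm]
  have h1 := card_ker_mul hs hm a
  have h2 : Nat.card ↥(chr hs hm a).ker ∣ 25 := ⟨_, h1.symm⟩
  have h3 : Nat.card ↥(chr hs hm a).ker ∈ Nat.divisors 25 := Nat.mem_divisors.2 ⟨h2, by norm_num⟩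
  have h4 : Nat.divisors 25 = {1, 5, 25} := by decide
  rw [h4] at h3
  simp only [Finset.mem_insert, Finset.mem_singleton] at h3
  rcases h3 with h3 | h3 | h3
  · omega
  · omega
  · exfalso
    have h5 : (chr hs hm a).ker = ⊤ := by
      apply Subgroup.eq_top_of_card_eq
      rw [h3, card_A5]
    obtain ⟨p, hp⟩ := h
    have h6 : Multiplicative.ofAdd p ∈ (chr hs hm a).ker := by rw [h5]; exact Subgroup.mem_top _
    exact hp (congrArg Units.val ((MonoidHom.mem_ker).1 h6))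

end Count

/-- **Regularity by counting** -/
theorem reg_of_KS {s t : A5 → ↥(chevE8.group k)} (hs : ∀ p, s p ∈ TT chevE8 k) (hsm : ∀ p q, s (p + q) = s p * s q)
    (ht : ∀ p, t p ∈ TT chevE8 k) (htm : ∀ p q, t (p + q) = t p * t q) (hreg : ∀ a, Rt a → ∃ p, cX tp8 (s p) a ≠ 1)
    (hK : ∀ p, KS (t p) = KS (s p)) {a : Fin 8 → ℤ} (ha : Rt a) : ∃ p, cX tp8 (t p) a ≠ 1 := by
  classical
  by_contra hcon
  push Not at hcon
  have h1 : ∑ p : A5, KS (t p) = ∑ p : A5, KS (s p) := Finset.sum_congr rfl fun p _ => hK p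
  have h2 : ∀ u : A5 → ↥(chevE8.group k), ∑ p : A5, KS (u p) =
      ∑ b : Ph8, ∑ p : A5, if cX tp8 (u p) b.1 = 1 then 1 else 0 := fun u => by
    rw [Finset.sum_comm]
    exact Finset.sum_congr rfl fun p _ => KS_eq _
  rw [h2, h2] at h1
  have h3 : ∑ b : Ph8, ∑ p : A5, (if cX tp8 (s p) b.1 = 1 then 1 else 0) <
      ∑ b : Ph8, ∑ p : A5, (if cX tp8 (t p) b.1 = 1 then 1 else 0) := by
    refine Finset.sum_lt_sum (fun b _ => (ker_le_five hs hsm (hreg b.1 b.2)).trans (five_le_ker ht htm b.1))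
      ⟨⟨a, ha⟩, Finset.mem_univ _, lt_of_le_of_lt (ker_le_five hs hsm (hreg a ha)) ?_⟩
    rw [Finset.sum_congr rfl fun p _ => if_pos (hcon p), Finset.sum_const, Finset.card_univ, Fintype.card_prod,
      ZMod.card]
    norm_num
  omega

/-! ### The elements of `SL₃(5)` -/

/-- every nontrivial element of `VL` is conjugate to `vp 0 1` -/
theorem vl_conj (p : A5) (hp : p ≠ 0) : ∃ x : SL35, x * vl p.1 p.2 = vp 0 1 * x := by
  obtain ⟨a, b⟩ := p
  obtain ⟨c, d, hcd⟩ : ∃ c d : ZMod 5, c * a + d * b = 1 := by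
    revert hp
    revert a b
    decide
  refine ⟨⟨!![c, d, 0; -b, a, 0; 0, 0, 1], by rw [Matrix.det_fin_three]; simp; linear_combination hcd⟩, ?_⟩
  apply Subtype.ext
  show (!![c, d, 0; -b, a, 0; 0, 0, 1] : Matrix (Fin 3) (Fin 3) (ZMod 5)) * !![1, 0, a; 0, 1, b; 0, 0, 1] =
    !![1, 0, 1; 0, 1, 0; 0, 0, 1] * !![c, d, 0; -b, a, 0; 0, 0, 1]
  ext i j
  fin_cases i <;> fin_cases j <;> simp [Matrix.mul_apply, Fin.sum_univ_three]
  · linear_combination hcd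
  · ring

/-- every nontrivial element of `VP` is conjugate to `vp 0 1` -/
theorem vp_conj (p : A5) (hp : p ≠ 0) : ∃ x : SL35, x * vp p.1 p.2 = vp 0 1 * x := by
  obtain ⟨a, b⟩ := p
  obtain ⟨c, d, hcd⟩ : ∃ c d : ZMod 5, c * b - d * a = 1 := by
    revert hp
    revert a b
    decide
  refine ⟨⟨!![1, 0, 0; 0, c, d; 0, a, b], by rw [Matrix.det_fin_three]; simp; linear_combination hcd⟩, ?_⟩
  apply Subtype.ext
  show (!![1, 0, 0; 0, c, d; 0, a, b] : Matrix (Fin 3) (Fin 3) (ZMod 5)) * !![1, a, b; 0, 1, 0; 0, 0, 1] =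
    !![1, 0, 1; 0, 1, 0; 0, 0, 1] * !![1, 0, 0; 0, c, d; 0, a, b]
  ext i j
  fin_cases i <;> fin_cases j <;> simp [Matrix.mul_apply, Fin.sum_univ_three]

theorem vl_add (p q : A5) : vl (p + q).1 (p + q).2 = vl p.1 p.2 * vl q.1 q.2 := by
  apply Subtype.ext
  show (!![1, 0, p.1 + q.1; 0, 1, p.2 + q.2; 0, 0, 1] : Matrix (Fin 3) (Fin 3) (ZMod 5)) =
    !![1, 0, p.1; 0, 1, p.2; 0, 0, 1] * !![1, 0, q.1; 0, 1, q.2; 0, 0, 1]
  ext i j
  fin_cases i <;> fin_cases j <;> simp [Matrix.mul_apply, Fin.sum_univ_three, add_comm]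

theorem vp_add (p q : A5) : vp (p + q).1 (p + q).2 = vp p.1 p.2 * vp q.1 q.2 := by
  apply Subtype.ext
  show (!![1, p.1 + q.1, p.2 + q.2; 0, 1, 0; 0, 0, 1] : Matrix (Fin 3) (Fin 3) (ZMod 5)) =
    !![1, p.1, p.2; 0, 1, 0; 0, 0, 1] * !![1, q.1, q.2; 0, 1, 0; 0, 0, 1]
  ext i j
  fin_cases i <;> fin_cases j <;> simp [Matrix.mul_apply, Fin.sum_univ_three, add_comm]

include hk in
/-- **Regularity of `g f(VL) g⁻¹`** -/
theorem reg_VL {f : SL35 →* ↥(chevE8.group k)} (hT : ∀ s ∈ VP, f s ∈ TT chevE8 k) (hreg : Reg (f '' VP))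
    {g : ↥(chevE8.group k)} (hg : ∀ s ∈ VL, g * f s * g⁻¹ ∈ TT chevE8 k) {a : Fin 8 → ℤ} (ha : Rt a) :
    ∃ p : A5, cX tp8 (g * f (vl p.1 p.2) * g⁻¹) a ≠ 1 := by
  have h1 : ∀ p : A5, f (vp p.1 p.2) ∈ TT chevE8 k := fun p => hT _ ⟨_, _, rfl⟩
  have h2 : ∀ p : A5, g * f (vl p.1 p.2) * g⁻¹ ∈ TT chevE8 k := fun p => hg _ ⟨_, _, rfl⟩
  refine reg_of_KS (s := fun p => f (vp p.1 p.2)) (t := fun p => g * f (vl p.1 p.2) * g⁻¹) h1
    (fun p q => by show f _ = _; rw [vp_add, map_mul]) h2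
    (fun p q => by show g * f _ * g⁻¹ = _; rw [vl_add, map_mul]; group) (fun b hb => ?_) (fun p => ?_) ha
  · obtain ⟨_, ⟨_, ⟨c, d, rfl⟩, rfl⟩, h⟩ := hreg b hb
    exact ⟨(c, d), h⟩
  · show KS (g * f (vl p.1 p.2) * g⁻¹) = KS (f (vp p.1 p.2))
    by_cases hp : p = 0
    · have e1 : vl p.1 p.2 = 1 := by
        subst hp
        apply Subtype.ext
        show (!![1, 0, 0; 0, 1, 0; 0, 0, 1] : Matrix (Fin 3) (Fin 3) (ZMod 5)) = 1
        ext i j
        fin_cases i <;> fin_cases j <;> rfl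
      have e2 : vp p.1 p.2 = 1 := by
        subst hp
        apply Subtype.ext
        show (!![1, 0, 0; 0, 1, 0; 0, 0, 1] : Matrix (Fin 3) (Fin 3) (ZMod 5)) = 1
        ext i j
        fin_cases i <;> fin_cases j <;> rfl
      rw [e1, e2, map_one, mul_one, mul_inv_cancel]
    · obtain ⟨x, hx⟩ := vl_conj p hp
      obtain ⟨y, hy⟩ := vp_conj p hp
      refine KS_conj hk (h2 p) (h1 p) (c := f y⁻¹ * f x * g⁻¹) ?_
      have e1 : f x * f (vl p.1 p.2) = f (vp 0 1) * f x := by rw [← map_mul, hx, map_mul]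
      have e2 : f y * f (vp p.1 p.2) = f (vp 0 1) * f y := by rw [← map_mul, hy, map_mul]
      have e3 : (f y)⁻¹ * f (vp 0 1) = f (vp p.1 p.2) * (f y)⁻¹ := by
        rw [inv_mul_eq_iff_eq_mul, ← mul_assoc, e2, mul_inv_cancel_right]
      calc f y⁻¹ * f x * g⁻¹ * (g * f (vl p.1 p.2) * g⁻¹) = (f y)⁻¹ * (f x * f (vl p.1 p.2)) * g⁻¹ := by
            rw [map_inv]; group
        _ = ((f y)⁻¹ * f (vp 0 1)) * f x * g⁻¹ := by rw [e1]; group
        _ = _ := by rw [e3, map_inv]; group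

/-! ### The pointwise stabiliser -/

/-- **B4 in the torus** -/
theorem five_of_tor {ι : Type*} {s : ι → ↥(chevE8.group k)} (hs : ∀ i, s i ∈ TT chevE8 k) (h5 : ∀ i, s i ^ 5 = 1)
    (hreg : ∀ a, Rt a → ∃ i, cX tp8 (s i) a ≠ 1) {w : W8}
    (hw : ∀ i x, cX tp8 (s i) (act w x) = cX tp8 (s i) x) : ∃ n : ℕ, w ^ 5 ^ n = 1 := by
  have hpos := orderOf_pos w
  obtain ⟨n, m, hm, ho⟩ := Nat.exists_eq_pow_mul_and_not_dvd hpos.ne' 5 (by norm_num)
  refine ⟨n, ?_⟩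
  by_contra hv
  have hm0 : 0 < m := Nat.pos_of_ne_zero (by rintro rfl; exact hm (dvd_zero 5))
  have hl : (w ^ 5 ^ n) ^ m = 1 := by rw [← pow_mul, ← ho, pow_orderOf_eq_one]
  obtain ⟨a, ha, hsum⟩ := Cfsg.Agent.BpExc.Fix.exists_root_sum_eq_zero (cs := cs8) (h := tp8.isCartan) hv hm0 hl
  obtain ⟨i, hne⟩ := hreg a ha
  have hmc := isMC_cX tp8 (hs i)
  -- the powers of `w`
  have hpow : ∀ k : ℕ, ∀ x, cX tp8 (s i) (act (w ^ k) x) = cX tp8 (s i) x := by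
    intro k
    induction k with
    | zero => intro x; rw [pow_zero, act_one]
    | succ k ih => intro x; rw [pow_succ, act_mul, ih, hw i]
  apply hne
  have h1 : cX tp8 (s i) (∑ j ∈ Finset.range m, act ((w ^ 5 ^ n) ^ j) a) = cX tp8 (s i) a ^ m := by
    rw [hmc.sum, Finset.prod_congr rfl (fun j _ => by rw [← pow_mul, hpow] :
      ∀ j ∈ Finset.range m, cX tp8 (s i) (act ((w ^ 5 ^ n) ^ j) a) = cX tp8 (s i) a), Finset.prod_const,
      Finset.card_range]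
  have h2 : cX tp8 (s i) a ^ m = 1 := by
    rw [← h1]
    have h3 : ∑ j ∈ Finset.range m, act ((w ^ 5 ^ n) ^ j) a = 0 := hsum
    rw [h3, hmc.zero]
  have h4 : cX tp8 (s i) a ^ 5 = 1 := by rw [← cX_pow tp8 (hs i), h5, cX_one]
  have h6 : orderOf (cX tp8 (s i) a) = 1 := by
    have h7 := orderOf_dvd_of_pow_eq_one h2
    have h8 := orderOf_dvd_of_pow_eq_one h4
    have h9 : Nat.Coprime m 5 := ((Nat.Prime.coprime_iff_not_dvd (by norm_num)).2 hm).symm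
    have h10 := Nat.dvd_gcd h7 h8
    rw [h9.gcd_eq_one] at h10
    exact Nat.dvd_one.1 h10
  exact orderOf_eq_one_iff.1 h6

end Tor

/-! ### The endomorphism `sg` on the torus -/

section Sg

variable {k : Type} [Field k] [CharP k 3] [IsAlgClosed k] [PerfectRing k 3] (hk : LocFin k)

theorem sg_apply (y : ↥(chevE8.group k)) : sg k y = n0 k * phi chevE8 k 3 1 y * (n0 k)⁻¹ := rfl

theorem phi_TT3 {t : ↥(chevE8.group k)} (ht : t ∈ TT chevE8 k) (m : ℕ) : phi chevE8 k 3 m t = t ^ 3 ^ m := by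
  rw [Subgroup.mem_subgroupOf] at ht
  obtain ⟨χ, hχ⟩ := HMatDiagAll.mem_torus.1 (HMatDiagAll.diagonalSubgroup_le_torus tp8.inList ht)
  apply Subtype.ext
  apply Units.ext
  rw [phi_coe, Subgroup.coe_pow, Units.val_pow_eq_pow_val, hχ, Matrix.diagonal_pow]
  ext i j
  rw [Matrix.map_apply]
  by_cases hij : i = j
  · subst hij
    rw [Matrix.diagonal_apply_eq, Matrix.diagonal_apply_eq]
    rfl
  · rw [Matrix.diagonal_apply_ne _ hij, Matrix.diagonal_apply_ne _ hij, zero_pow (pow_ne_zero _ three_ne_zero)]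

include hk in
theorem sg_TT {t : ↥(chevE8.group k)} (ht : t ∈ TT chevE8 k) : sg k t ∈ TT chevE8 k := by
  rw [sg_apply, phi_TT3 ht]
  exact rp_conj_TT hk (n0_rp hk) (pow_mem ht _)

include hk in
theorem cX_sg {t : ↥(chevE8.group k)} (ht : t ∈ TT chevE8 k) (x : Fin 8 → ℤ) :
    cX tp8 (sg k t) x = cX tp8 t (act w8 x) ^ 3 := by
  rw [sg_apply, phi_TT3 ht, pow_one, ← cX_pow tp8 ht, ← cX_rp3 hk (n0_rp hk) (pow_mem ht 3), act_inv_act]

include hk in
/-- **Lang's theorem in the torus** -/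
theorem lang_sg {c : ↥(chevE8.group k)} (hc : c ∈ TT chevE8 k) : ∃ b ∈ TT chevE8 k, c = sg k b * b⁻¹ := by
  obtain ⟨u, hu, hu80⟩ := Cfsg.Agent.H795.LangT.exists_root tp8 invC_E8 one_ne_zero hc (n := 80) (by norm_num)
  have h1 := sg_TT hk hu
  have h2 := sg_TT hk h1
  have h3 := sg_TT hk h2
  have h4 := sg_TT hk h3
  have e4 : sg k (sg k (sg k (sg k u))) = u ^ 81 := by
    refine cX_inj tp8 h4 (pow_mem hu _) fun i => ?_
    rw [cX_sg hk h3, cX_sg hk h2, cX_sg hk h1, cX_sg hk hu, cX_pow tp8 hu, w8_sq, w8_sq, neg_neg,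
      ← pow_mul, ← pow_mul, ← pow_mul]
  have hcm := TT_comm (K := k) tp8
  refine ⟨u * sg k u * sg k (sg k u) * sg k (sg k (sg k u)), mul_mem (mul_mem (mul_mem hu h1) h2) h3, ?_⟩
  obtain ⟨A, hA⟩ : ∃ A, A = sg k u * sg k (sg k u) * sg k (sg k (sg k u)) := ⟨_, rfl⟩
  have hAT : A ∈ TT chevE8 k := by rw [hA]; exact mul_mem (mul_mem h1 h2) h3
  rw [map_mul, map_mul, map_mul, e4, ← hA, mul_assoc u, mul_assoc u, ← hA, hcm u hu A hAT, mul_inv_rev,
    show (81 : ℕ) = 80 + 1 by norm_num, pow_succ, hu80]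
  calc c = A * (c * A⁻¹) := by rw [hcm c hc _ (inv_mem hAT)]; group
    _ = _ := by
      group

include hk in
/-- the elements of `T` with `s (w8 x) = s(x)²` -/
theorem mem_T5_of {t : ↥(chevE8.group k)} (ht : t ∈ TT chevE8 k)
    (h : ∀ x, cX tp8 t (act w8 x) = cX tp8 t x ^ 2) : t ∈ T5 k := by
  have h5 : ∀ x, cX tp8 t x ^ 5 = 1 := by
    intro x
    have h1 := h (act w8 x)
    rw [w8_sq, h, (isMC_cX tp8 ht).neg, ← pow_mul] at h1
    have h0 := (isMC_cX tp8 ht).ne_zero x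
    calc cX tp8 t x ^ 5 = cX tp8 t x ^ (2 * 2) * cX tp8 t x := by ring
      _ = 1 := by rw [← h1, inv_mul_cancel₀ h0]
  refine ⟨⟨ht, ?_⟩, ?_⟩
  · show sg k t = t
    refine cX_inj tp8 (sg_TT hk ht) ht fun i => ?_
    rw [cX_sg hk ht, h, ← pow_mul, show 2 * 3 = 5 + 1 by norm_num, pow_succ, h5, one_mul]
  · refine cX_inj tp8 (pow_mem ht 5) (one_mem _) fun i => ?_
    rw [cX_pow tp8 ht, h5, cX_one]

include hk in
theorem rp_inj {w w' : W8} {c : ↥(chevE8.group k)} (h : Rp cs8 (nsysL tp8 cs8 hk 3) w c)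
    (h' : Rp cs8 (nsysL tp8 cs8 hk 3) w' c) : w = w' := by
  refine act_ext fun x => cX_sep tp8 (k := k) invC_E8 one_ne_zero fun t ht => ?_
  have h1 : c⁻¹ * t * c ∈ TT chevE8 k := by
    have := rp_conj_TT hk h.inv ht
    rwa [inv_inv] at this
  have e : c * (c⁻¹ * t * c) * c⁻¹ = t := by group
  have h2 := cX_rp3 hk h h1 x
  have h3 := cX_rp3 hk h' h1 x
  rw [e] at h2 h3
  rw [h2, h3]

/-! ### The element `diag(3, 3, 4)` -/

/-- `diag(3, 3, 4)` -/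
def zl : SL35 := ⟨!![3, 0, 0; 0, 3, 0; 0, 0, 4], by
  rw [Matrix.det_fin_three]
  decide⟩

theorem zl_vl (p : A5) : zl * vl p.1 p.2 = vl p.1 p.2 * vl p.1 p.2 * zl := by
  apply Subtype.ext
  show (!![3, 0, 0; 0, 3, 0; 0, 0, 4] : Matrix (Fin 3) (Fin 3) (ZMod 5)) * !![1, 0, p.1; 0, 1, p.2; 0, 0, 1] =
    !![1, 0, p.1; 0, 1, p.2; 0, 0, 1] * !![1, 0, p.1; 0, 1, p.2; 0, 0, 1] * !![3, 0, 0; 0, 3, 0; 0, 0, 4]
  have key : ∀ a : ZMod 5, 3 * a = a * 4 + a * 4 := by decide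
  ext i j
  fin_cases i <;> fin_cases j <;> simp [Matrix.mul_apply, Fin.sum_univ_three, add_mul, key] <;> decide

theorem zl_four : zl * zl * zl * zl = 1 := by
  apply Subtype.ext
  show (!![3, 0, 0; 0, 3, 0; 0, 0, 4] : Matrix (Fin 3) (Fin 3) (ZMod 5)) * !![3, 0, 0; 0, 3, 0; 0, 0, 4] *
    !![3, 0, 0; 0, 3, 0; 0, 0, 4] * !![3, 0, 0; 0, 3, 0; 0, 0, 4] = 1
  decide

theorem vl_five (p : A5) : vl p.1 p.2 ^ 5 = 1 := by
  have h1 : ∀ n : ℕ, vl p.1 p.2 ^ n = vl (n • p).1 (n • p).2 := by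
    intro n
    induction n with
    | zero =>
      rw [pow_zero, zero_smul]
      apply Subtype.ext
      show (1 : Matrix (Fin 3) (Fin 3) (ZMod 5)) = !![1, 0, 0; 0, 1, 0; 0, 0, 1]
      ext i j
      fin_cases i <;> fin_cases j <;> rfl
    | succ n ih => rw [pow_succ, ih, succ_nsmul, vl_add]
  have h2 : ∀ q : A5, (5 : ℕ) • q = 0 := by decide
  rw [h1, h2]
  apply Subtype.ext
  show !![1, 0, 0; 0, 1, 0; 0, 0, 1] = (1 : Matrix (Fin 3) (Fin 3) (ZMod 5))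
  ext i j
  fin_cases i <;> fin_cases j <;> rfl

theorem vl_inj {p q : A5} (h : vl p.1 p.2 = vl q.1 q.2) : p = q := by
  have h1 := congrArg (fun g : SL35 => g.1 0 2) h
  have h2 := congrArg (fun g : SL35 => g.1 1 2) h
  exact Prod.ext h1 h2

/-! ### Assembly -/

variable {f : SL35 →* ↥(chevE8.group k)}

include hk in
theorem exists_omega (hT : ∀ s ∈ VP, f s ∈ TT chevE8 k) (hreg : Reg (f '' VP)) {g : ↥(chevE8.group k)}
    (hg : ∀ s ∈ VL, g * f s * g⁻¹ ∈ TT chevE8 k) :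
    ∃ ω : W8, Rp cs8 (nsysL tp8 cs8 hk 3) ω (g * f zl * g⁻¹) ∧ ∀ x, act ω (act ω x) = -x := by
  obtain ⟨S, hS⟩ : ∃ S : A5 → ↥(chevE8.group k), ∀ p, S p = g * f (vl p.1 p.2) * g⁻¹ := ⟨_, fun _ => rfl⟩
  have hST : ∀ p, S p ∈ TT chevE8 k := fun p => by rw [hS]; exact hg _ ⟨_, _, rfl⟩
  have hSreg : ∀ a, Rt a → ∃ p, cX tp8 (S p) a ≠ 1 := fun a ha => by
    obtain ⟨p, hp⟩ := reg_VL hk hT hreg hg ha
    exact ⟨p, by rw [hS]; exact hp⟩
  have hS5 : ∀ p, S p ^ 5 = 1 := fun p => by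
    rw [hS, conj_pow, ← map_pow, vl_five, map_one, mul_one, mul_inv_cancel]
  have hX5 : ∀ p x, cX tp8 (S p) x ^ 5 = 1 := fun p x => by rw [← cX_pow tp8 (hST p), hS5, cX_one]
  obtain ⟨c, hc⟩ : ∃ c, c = g * f zl * g⁻¹ := ⟨_, rfl⟩
  rw [← hc]
  have hcS : ∀ p, c * S p = (S p * S p) * c := fun p => by
    have e := congrArg f (zl_vl p)
    rw [map_mul, map_mul, map_mul] at e
    rw [hc, hS]
    calc g * f zl * g⁻¹ * (g * f (vl p.1 p.2) * g⁻¹) = g * (f zl * f (vl p.1 p.2)) * g⁻¹ := by group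
      _ = _ := by rw [e]; group
  have hX2 : ∀ p x, cX tp8 (S p * S p) x = cX tp8 (S p) x ^ 2 := fun p x => by
    rw [cX_mul tp8 (hST p) (hST p), sq]
  obtain ⟨ω, n, hn, -, hnc⟩ := exists_rp_conj hk (s := S) (t := fun p => S p * S p) hST
    (fun p => mul_mem (hST p) (hST p)) hcS
  have hnc := hnc fun a ha => by
    obtain ⟨p, hp⟩ := hSreg a ha
    refine ⟨p, fun h1 => hp ?_⟩
    rw [hX2] at h1
    calc cX tp8 (S p) a = cX tp8 (S p) a ^ 5 * ((cX tp8 (S p) a ^ 2) ^ 2)⁻¹ := by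
          have h0 := (isMC_cX tp8 (hST p)).ne_zero a
          field_simp
      _ = 1 := by rw [hX5, h1]; norm_num
  rw [hnc] at hn
  refine ⟨ω, hn, ?_⟩
  have hω : ∀ p x, cX tp8 (S p) (act ω x) = cX tp8 (S p) x ^ 3 := fun p x => by
    have h1 := cX_rp3 hk hn (hST p) x
    rw [hcS, mul_inv_cancel_right, hX2] at h1
    rw [← h1, ← pow_mul, show 2 * 3 = 5 + 1 by norm_num, pow_succ, hX5, one_mul]
  -- `ω⁴ = 1`
  have hω4 : ω * ω * ω * ω = 1 := by
    have h1 := ((hn.mul hn).mul hn).mul hn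
    have h2 : c * c * c * c = 1 := by
      rw [hc]
      calc g * f zl * g⁻¹ * (g * f zl * g⁻¹) * (g * f zl * g⁻¹) * (g * f zl * g⁻¹) =
          g * (f zl * f zl * f zl * f zl) * g⁻¹ := by group
        _ = 1 := by rw [← map_mul, ← map_mul, ← map_mul, zl_four, map_one]; group
    rw [h2] at h1
    exact rp_inj hk h1 rp_one
  -- `γ = w8² ω²`
  obtain ⟨γ, hγ⟩ : ∃ γ : W8, γ = w8 * w8 * (ω * ω) := ⟨_, rfl⟩
  have hγa : ∀ x, act γ x = -act ω (act ω x) := fun x => by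
    rw [hγ, act_mul, act_mul, act_mul, w8_sq]
  obtain ⟨m, hm⟩ := five_of_tor hST hS5 hSreg (w := γ) fun p x => by
    rw [hγa, (isMC_cX tp8 (hST p)).neg, hω, hω, ← pow_mul]
    have h0 := (isMC_cX tp8 (hST p)).ne_zero x
    refine inv_eq_of_mul_eq_one_right ?_
    calc cX tp8 (S p) x ^ (3 * 3) * cX tp8 (S p) x = (cX tp8 (S p) x ^ 5) ^ 2 := by ring
      _ = 1 := by rw [hX5, one_pow]
  have hγ2 : γ * γ = 1 := by
    refine act_ext fun x => ?_
    rw [act_mul, hγa, hγa, map_neg, map_neg, neg_neg, act_one, ← act_mul, ← act_mul, ← act_mul, hω4, act_one]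
  have hγ1 : γ = 1 := by
    obtain ⟨j, hj⟩ : ∃ j, 5 ^ m = 2 * j + 1 := by
      have : Odd (5 ^ m) := Odd.pow (by decide)
      exact this
    rw [hj, pow_succ, pow_mul, sq, hγ2, one_pow, one_mul] at hm
    exact hm
  intro x
  have h1 := hγa x
  rw [hγ1, act_one] at h1
  exact neg_eq_iff_eq_neg.1 h1.symm

/-- `w` commutes with `w8` -/
theorem mem_CW_of_rp {g : ↥(chevE8.group k)} (hr : ∀ x, f x ∈ GT k)
    (hz : Rp cs8 (nsysL tp8 cs8 hk 3) w8⁻¹ (g * f zl * g⁻¹)) {w : W8}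
    (hw : Rp cs8 (nsysL tp8 cs8 hk 3) w (sg k g * g⁻¹)) : w ∈ CW := by
  obtain ⟨z, hzz⟩ : ∃ z, z = g * f zl * g⁻¹ := ⟨_, rfl⟩
  rw [← hzz] at hz
  have hfz : sg k (f zl) = f zl := hr zl
  have e1 : sg k z = (sg k g * g⁻¹) * z * (sg k g * g⁻¹)⁻¹ := by
    rw [hzz, map_mul, map_mul, map_inv, hfz]; group
  have h1 := (hw.mul hz).mul hw.inv
  rw [← e1] at h1
  -- compare the characters
  have h2 : w8 * w8 * (w * w8⁻¹ * w⁻¹) = w8 := by
    refine act_ext fun y => cX_sep tp8 (k := k) invC_E8 one_ne_zero fun t ht => ?_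
    have h3 := sg_TT hk ht
    have h4 := rp_conj_TT hk hz ht
    have h5 := cX_rp3 hk h1 h3 y
    have e2 : sg k z * sg k t * (sg k z)⁻¹ = sg k (z * t * z⁻¹) := by rw [map_mul, map_mul, map_inv]
    rw [e2, cX_sg hk h4, cX_sg hk ht] at h5
    have h6 : cX tp8 (z * t * z⁻¹) (act w8 (act (w * w8⁻¹ * w⁻¹) y)) = cX tp8 t (act w8 y) :=
      frobenius_inj k 3 h5
    have h7 := cX_rp3 hk hz ht (act w8 (act w8 (act (w * w8⁻¹ * w⁻¹) y)))
    rw [act_inv_act, h6] at h7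
    rw [act_mul, act_mul]
    exact h7.symm
  rw [CW, Subgroup.mem_centralizer_singleton_iff]
  have h3 : w8 * w * w8⁻¹ * w⁻¹ = 1 := by
    have h4 : w8 * (w8 * w * w8⁻¹ * w⁻¹) = w8 := by
      calc w8 * (w8 * w * w8⁻¹ * w⁻¹) = w8 * w8 * (w * w8⁻¹ * w⁻¹) := by group
        _ = w8 := h2
    exact mul_eq_left.1 h4
  calc w * w8 = (w8 * w * w8⁻¹ * w⁻¹) * w * w8 := by rw [h3, one_mul]
    _ = w8 * w := by group

/-- the hypotheses on `CW` used: `five_elt`, `fix_line` (S5923, B) -/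
theorem eq_one_of_fixes
    (five_elt : ∀ {u : W8}, u ∈ CW → ∀ {n : ℕ}, u ^ 5 ^ n = 1 → u ^ 5 = 1)
    (fix_line : ∀ {u : W8}, u ∈ CW → u ^ 5 = 1 → u ≠ 1 → ∀ {φ ψ : Module.Dual (ZMod 5) (Fin 4 → ZMod 5)},
      (∀ x, φ (PP (act u x)) = φ (PP x)) → (∀ x, ψ (PP (act u x)) = ψ (PP x)) → φ ≠ 0 → ∃ c : ZMod 5, ψ = c • φ)
    {ζ : k} (hζ : IsPrimitiveRoot ζ 5) {e : Module.Dual (ZMod 5) (Fin 4 → ZMod 5) → ↥(chevE8.group k)}
    (hr : Set.range e = T5 k) (he : ∀ φ x, cX tp8 (e φ) x = ζ ^ (φ (PP x)).val)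
    {S : A5 → ↥(chevE8.group k)} (hS : ∀ p, S p ∈ T5 k) (hSm : ∀ p q, S (p + q) = S p * S q)
    (hSi : Function.Injective S) (hreg : ∀ a, Rt a → ∃ p, cX tp8 (S p) a ≠ 1) {w : W8} (hw : w ∈ CW)
    (hfix : ∀ p x, cX tp8 (S p) (act w x) = cX tp8 (S p) x) : w = 1 := by
  have hST : ∀ p, S p ∈ TT chevE8 k := fun p => (hS p).1.1
  obtain ⟨n, hn⟩ := five_of_tor hST (fun p => (hS p).2) hreg hfix
  have h5 := five_elt hw hn
  by_contra hw1
  have hφ : ∀ p, ∃ φ, e φ = S p := fun p => by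
    have := hS p
    rw [← hr] at this
    exact this
  choose φ hφ using hφ
  have hzinj : ∀ a b : ZMod 5, ζ ^ a.val = ζ ^ b.val → a = b := fun a b hab =>
    ZMod.val_injective 5 (hζ.pow_inj (ZMod.val_lt a) (ZMod.val_lt b) hab)
  have hfx : ∀ p x, φ p (PP (act w x)) = φ p (PP x) := fun p x => by
    apply hzinj
    rw [← he, ← he, hφ, hfix]
  have h1 : φ (1, 0) ≠ 0 := by
    intro h0
    have h2 : S (1, 0) = S 0 := by
      refine cX_inj tp8 (hST _) (hST _) fun i => ?_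
      rw [← hφ (1, 0), he, h0, fam_zero hSm, cX_one, LinearMap.zero_apply, ZMod.val_zero, pow_zero]
    exact absurd (hSi h2) (by decide)
  obtain ⟨c, hc⟩ := fix_line hw h5 hw1 (hfx (1, 0)) (hfx (0, 1)) h1
  have hpow : ∀ m : ℕ, S (1, 0) ^ m = S (m • (1, 0)) := by
    intro m
    induction m with
    | zero => rw [pow_zero, zero_smul, fam_zero hSm]
    | succ m ih => rw [pow_succ, ih, succ_nsmul, hSm]
  have h3 : S (0, 1) = S (c.val • (1, 0)) := by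
    rw [← hpow]
    refine cX_inj tp8 (hST _) (pow_mem (hST _) _) fun i => ?_
    rw [cX_pow tp8 (hST _), ← hφ (0, 1), ← hφ (1, 0), he, he, hc, LinearMap.smul_apply, smul_eq_mul, ← pow_mul,
      ZMod.val_mul, mul_comm (ZMod.val _)]
    exact pow_eq_pow_of_modEq (Nat.mod_modEq _ _) hζ.pow_eq_one
  have h4 := congrArg Prod.snd (hSi h3)
  rw [Prod.smul_snd, smul_zero] at h4
  exact absurd h4 (by decide)

include hk in
/-- **TOR**, from T0, T2, B1, B5 and A2 -/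
theorem tor_of
    (conj_w8 : ∀ {ω : W8}, (∀ x, act ω (act ω x) = -x) → ∃ v : W8, v * ω * v⁻¹ = w8)
    (toral_VL : ∃ g : ↥(chevE8.group k), ∀ s ∈ VL, g * f s * g⁻¹ ∈ TT chevE8 k)
    (five_elt : ∀ {u : W8}, u ∈ CW → ∀ {n : ℕ}, u ^ 5 ^ n = 1 → u ^ 5 = 1)
    (fix_line : ∀ {u : W8}, u ∈ CW → u ^ 5 = 1 → u ≠ 1 → ∀ {φ ψ : Module.Dual (ZMod 5) (Fin 4 → ZMod 5)},
      (∀ x, φ (PP (act u x)) = φ (PP x)) → (∀ x, ψ (PP (act u x)) = ψ (PP x)) → φ ≠ 0 → ∃ c : ZMod 5, ψ = c • φ)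
    {ζ : k} (hζ : IsPrimitiveRoot ζ 5) {e : Module.Dual (ZMod 5) (Fin 4 → ZMod 5) → ↥(chevE8.group k)}
    (hrg : Set.range e = T5 k) (he : ∀ φ x, cX tp8 (e φ) x = ζ ^ (φ (PP x)).val)
    (hf : Function.Injective f) (hr : ∀ x, f x ∈ GT k)
    (h : ∀ s ∈ VP, f s ∈ T5 k) (hreg : Reg (f '' VP)) :
    ∃ g ∈ GT k, (∀ s ∈ VL, g * f s * g⁻¹ ∈ T5 k) ∧ Reg ((fun s => g * f s * g⁻¹) '' VL) := by
  have hT : ∀ s ∈ VP, f s ∈ TT chevE8 k := fun s hs => (h s hs).1.1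
  obtain ⟨g1, hg1⟩ := toral_VL
  obtain ⟨ω, hω, hω2⟩ := exists_omega hk hT hreg hg1
  -- `v ω v⁻¹ = w8⁻¹`
  obtain ⟨v, hv⟩ := conj_w8 (ω := ω⁻¹) fun x => by
    have h1 := hω2 (act ω⁻¹ (act ω⁻¹ x))
    rw [act_act_inv, act_act_inv] at h1
    exact neg_eq_iff_eq_neg.1 h1.symm
  have hv' : v * ω * v⁻¹ = w8⁻¹ := by rw [← hv]; group
  obtain ⟨n, hn⟩ := exists_rp cs8 (nsysL tp8 cs8 hk 3) v
  obtain ⟨g, hgg⟩ : ∃ g, g = n * g1 := ⟨_, rfl⟩
  have hg : ∀ s ∈ VL, g * f s * g⁻¹ ∈ TT chevE8 k := fun s hs => by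
    have h1 := rp_conj_TT hk hn (hg1 s hs)
    have e1 : g * f s * g⁻¹ = n * (g1 * f s * g1⁻¹) * n⁻¹ := by rw [hgg]; group
    rw [e1]; exact h1
  have hz : Rp cs8 (nsysL tp8 cs8 hk 3) w8⁻¹ (g * f zl * g⁻¹) := by
    have h1 := (hn.mul hω).mul hn.inv
    rw [hv'] at h1
    have e1 : g * f zl * g⁻¹ = n * (g1 * f zl * g1⁻¹) * n⁻¹ := by rw [hgg]; group
    rw [e1]; exact h1
  obtain ⟨S, hS⟩ : ∃ S : A5 → ↥(chevE8.group k), ∀ p, S p = g * f (vl p.1 p.2) * g⁻¹ := ⟨_, fun _ => rfl⟩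
  have hST : ∀ p, S p ∈ TT chevE8 k := fun p => by rw [hS]; exact hg _ ⟨_, _, rfl⟩
  have hSreg : ∀ a, Rt a → ∃ p, cX tp8 (S p) a ≠ 1 := fun a ha => by
    obtain ⟨p, hp⟩ := reg_VL hk hT hreg hg ha
    exact ⟨p, by rw [hS]; exact hp⟩
  -- `S p ∈ T5`
  have hS5 : ∀ p, S p ∈ T5 k := fun p => by
    refine mem_T5_of hk (hST p) fun y => ?_
    have h1 := cX_rp3 hk hz (hST p) (act w8 y)
    have e1 : g * f zl * g⁻¹ * S p * (g * f zl * g⁻¹)⁻¹ = S p * S p := by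
      have e := congrArg f (zl_vl p)
      rw [map_mul, map_mul, map_mul] at e
      rw [hS]
      calc g * f zl * g⁻¹ * (g * f (vl p.1 p.2) * g⁻¹) * (g * f zl * g⁻¹)⁻¹ =
          g * (f zl * f (vl p.1 p.2)) * (f zl)⁻¹ * g⁻¹ := by group
        _ = _ := by rw [e]; group
    rw [act_inv_act, e1, cX_mul tp8 (hST p) (hST p), ← sq] at h1
    exact h1.symm
  have hSm : ∀ p q, S (p + q) = S p * S q := fun p q => by
    rw [hS, hS, hS, vl_add, map_mul]; group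
  have hSi : Function.Injective S := fun p q hpq => by
    rw [hS, hS] at hpq
    exact vl_inj (hf (mul_left_cancel (mul_right_cancel hpq)))
  -- the cocycle
  obtain ⟨c, hc⟩ : ∃ c, c = sg k g * g⁻¹ := ⟨_, rfl⟩
  have hcS : ∀ p, c * S p = S p * c := fun p => by
    have h1 : sg k (S p) = S p := (hS5 p).1.2
    have h2 : sg k (f (vl p.1 p.2)) = f (vl p.1 p.2) := hr _
    have h3 : sg k (S p) = c * S p * c⁻¹ := by
      rw [hS, map_mul, map_mul, map_inv, h2, hc]; group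
    rw [h1] at h3
    exact (eq_mul_inv_iff_mul_eq.1 h3).symm
  obtain ⟨w, m, hm, -, hmc⟩ := exists_rp_conj hk (s := S) (t := S) hST hST hcS
  rw [hmc hSreg] at hm
  have hw : w ∈ CW := mem_CW_of_rp hk hr hz (by rw [← hc]; exact hm)
  have hw1 : w = 1 := by
    refine eq_one_of_fixes five_elt fix_line hζ hrg he hS5 hSm hSi hSreg hw fun p x => ?_
    have h1 := cX_rp3 hk hm (hST p) x
    rwa [hcS, mul_inv_cancel_right] at h1
  rw [hw1] at hm
  obtain ⟨b, hb, hcb⟩ := lang_sg hk hm.mem_of_one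
  have hgS : ∀ s ∈ VL, b⁻¹ * g * f s * (b⁻¹ * g)⁻¹ = g * f s * g⁻¹ := fun s hs => by
    have h1 := TT_comm (K := k) tp8 _ (inv_mem hb) _ (hg s hs)
    calc b⁻¹ * g * f s * (b⁻¹ * g)⁻¹ = b⁻¹ * (g * f s * g⁻¹) * b := by group
      _ = _ := by rw [h1]; group
  refine ⟨b⁻¹ * g, ?_, fun s hs => ?_, fun a ha => ?_⟩
  · show sg k (b⁻¹ * g) = b⁻¹ * g
    have h1 : sg k g = sg k b * b⁻¹ * g := by rw [← hcb, hc]; group
    rw [map_mul, map_inv, h1]; group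
  · rw [hgS s hs]
    obtain ⟨c, d, rfl⟩ := hs
    rw [← hS (c, d)]
    exact hS5 _
  · obtain ⟨p, hp⟩ := hSreg a ha
    refine ⟨S p, ⟨vl p.1 p.2, ⟨_, _, rfl⟩, ?_⟩, hp⟩
    show b⁻¹ * g * f (vl p.1 p.2) * (b⁻¹ * g)⁻¹ = S p
    rw [hgS _ ⟨_, _, rfl⟩, hS]

end Sg

end Cfsg.Agent.H241.L5
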